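/-
S3162 (SuzA project of helper58), package (10) PkgGamma: there are `(q² - 1) · 2n` maps
`a ↦ l * ρ a` on a field with `q² = (2 ^ n) ^ 2` elements.
-/
import Mathlib
import Cfsg.Agent.Lib.Helper58.SuzA.Defs

set_option autoImplicit false

namespace Cfsg.Agent.Lib.Helper96.SuzA

open Cfsg.Agent.Lib.Helper58.SuzA

universe u

/-- **Package (10) PkgGamma.** -/
theorem pkgGamma : PkgGamma.{u} := by
  intro F _ _ n hn hF
  classical
  have hF' : Fintype.card F = 2 ^ (n * 2) := by rw [hF, ← pow_mul]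
  have hF2 : Fact (Nat.Prime 2) := ⟨Nat.prime_two⟩
  have hch : CharP F 2 := charP_of_card_eq_prime_pow hF'
  let _alg : Algebra (ZMod 2) F := ZMod.algebra F 2
  have hfr : Module.finrank (ZMod 2) F = n * 2 := by
    have h := Module.card_eq_pow_finrank (K := ZMod 2) (V := F)
    rw [hF', ZMod.card] at h
    exact (Nat.pow_right_injective (le_refl 2) h).symm
  have haut : Nat.card (F ≃ₐ[ZMod 2] F) = n * 2 := by
    rw [IsGalois.card_aut_eq_finrank, hfr]
  let f : Fˣ × (F ≃ₐ[ZMod 2] F) → Gam F := fun p =>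
    ⟨Equiv.mulLeft₀ (p.1 : F) p.1.ne_zero * (p.2 : F ≃ₐ[ZMod 2] F).toEquiv,
      ⟨p.1, p.1.ne_zero, p.2.toRingEquiv, fun a => rfl⟩⟩
  have hfapp : ∀ (p : Fˣ × (F ≃ₐ[ZMod 2] F)) (a : F),
      ((f p : Gam F) : Equiv.Perm F) a = (p.1 : F) * p.2 a := fun p a => rfl
  have hf : Function.Bijective f := by
    constructor
    · rintro ⟨l, ρ⟩ ⟨l', ρ'⟩ h
      have h' : ∀ a : F, (l : F) * ρ a = (l' : F) * ρ' a := by
        intro a
        have h2 := congrArg (fun σ : Gam F => (σ : Equiv.Perm F) a) h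
        exact h2
      have hl : (l : F) = l' := by
        have h3 := h' 1
        simpa using h3
      have hll : l = l' := Units.ext hl
      subst hll
      have hρ : ρ = ρ' := by
        ext a
        exact mul_left_cancel₀ l.ne_zero (h' a)
      rw [hρ]
    · rintro ⟨σ, l, hl, ρ, hρ⟩
      have hcomm : ∀ x : ZMod 2, ρ (algebraMap (ZMod 2) F x) = algebraMap (ZMod 2) F x := by
        intro x
        have h4 : (ρ : F →+* F).comp (algebraMap (ZMod 2) F) = algebraMap (ZMod 2) F :=
          Subsingleton.elim _ _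
        exact RingHom.congr_fun h4 x
      refine ⟨(Units.mk0 l hl, AlgEquiv.ofRingEquiv (f := ρ) hcomm), ?_⟩
      apply Subtype.ext
      ext a
      rw [hfapp]
      exact (hρ a).symm
  rw [← Nat.card_congr (Equiv.ofBijective f hf), Nat.card_prod, Nat.card_units,
    Nat.card_eq_fintype_card, hF, haut]
  ring

end Cfsg.Agent.Lib.Helper96.SuzA
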