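/-
S3162 (SuzA project of helper58), package (8) PkgKerCard: the group `K C` of automorphisms of
`T` fixing the first coordinate has order `2 ^ (2 n²)`.
`K C ≃ Hom_{F₂}(F, F_q)`, `φ ↦ h` with `c (φ x) = (a, b + h a)`.
-/
import Mathlib
import Cfsg.Agent.Lib.Helper58.SuzA.Defs
import Cfsg.Agent.Lib.Helper66.SuzA.KerComm
import Cfsg.Agent.Lib.Helper29.SuzA.Tr
import Cfsg.Agent.Lib.Helper29.SuzA.Transport

set_option autoImplicit false

namespace Cfsg.Agent.Lib.Helper96.SuzA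

open Cfsg.Agent.Lib.Helper58.SuzA

universe u v

section field

variable (F : Type u) [Field F] [Fintype F] [CharP F 2] (n : ℕ)

/-- the `ZMod 2`-algebra structure of a field of characteristic 2 -/
@[reducible] def alg2 : Algebra (ZMod 2) F := ZMod.algebra F 2

attribute [local instance] alg2

/-- the fixed points of `x ↦ x ^ 2 ^ n` as an additive subgroup -/
def fixAdd : AddSubgroup F where
  carrier := {t | t ^ (2 ^ n) = t}
  add_mem' := by
    intro a b ha hb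
    have ha' : a ^ (2 ^ n) = a := ha
    have hb' : b ^ (2 ^ n) = b := hb
    show (a + b) ^ (2 ^ n) = a + b
    rw [add_pow_char_pow, ha', hb']
  zero_mem' := by
    show (0 : F) ^ (2 ^ n) = 0
    exact zero_pow (by positivity)
  neg_mem' := by
    intro a ha
    have ha' : a ^ (2 ^ n) = a := ha
    show (-a) ^ (2 ^ n) = -a
    rw [CharTwo.neg_eq, ha']

/-- the fixed points of `x ↦ x ^ 2 ^ n` as an `F₂`-subspace -/
def fixSub : Submodule (ZMod 2) F := AddSubgroup.toZModSubmodule 2 (fixAdd F n)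

omit [Fintype F] in
theorem mem_fixSub (t : F) : t ∈ fixSub F n ↔ t ^ (2 ^ n) = t := Iff.rfl

/-- the trace `b ↦ b + b ^ q` as an `F₂`-linear map -/
def trLin : F →ₗ[ZMod 2] F :=
  AddMonoidHom.toZModLinearMap 2 (AddMonoidHom.mk' (fun b => b + b ^ (2 ^ n)) (by
    intro a b
    rw [add_pow_char_pow]
    abel))

omit [Fintype F] in
theorem trLin_apply (b : F) : trLin F n b = b + b ^ (2 ^ n) := rfl

theorem finrank_F (hF : Fintype.card F = (2 ^ n) ^ 2) : Module.finrank (ZMod 2) F = n * 2 := by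
  have h := Module.card_eq_pow_finrank (K := ZMod 2) (V := F)
  rw [hF, ZMod.card, ← pow_mul] at h
  exact (Nat.pow_right_injective (le_refl 2) h).symm

theorem card_fixSub_le (hn : n ≠ 0) : Nat.card (fixSub F n) ≤ 2 ^ n := by
  classical
  have hsub : (Finset.univ.filter (fun t : F => t ^ (2 ^ n) = t)).val ⊆
      (Polynomial.X ^ 2 ^ n - Polynomial.X : Polynomial F).roots := by
    intro t ht
    rw [Finset.mem_val, Finset.mem_filter] at ht
    rw [Polynomial.mem_roots (FiniteField.X_pow_card_pow_sub_X_ne_zero F hn (by norm_num))]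
    simp [Polynomial.IsRoot, ht.2]
  have h := Polynomial.card_le_degree_of_subset_roots hsub
  rw [FiniteField.X_pow_card_pow_sub_X_natDegree_eq F hn (by norm_num)] at h
  have e : Nat.card (fixSub F n) = Nat.card {t : F // t ^ (2 ^ n) = t} := rfl
  rw [e, Nat.card_eq_fintype_card, Fintype.card_subtype]
  exact h

theorem finrank_fixSub (hn : 1 ≤ n) (hF : Fintype.card F = (2 ^ n) ^ 2) :
    Module.finrank (ZMod 2) (fixSub F n) = n := by
  have hfr := finrank_F F n hF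
  have hker : LinearMap.ker (trLin F n) = fixSub F n := by
    ext b
    rw [LinearMap.mem_ker, trLin_apply, mem_fixSub, CharTwo.add_eq_zero]
    exact eq_comm
  have hrange : LinearMap.range (trLin F n) ≤ fixSub F n := by
    rintro _ ⟨b, rfl⟩
    rw [mem_fixSub, trLin_apply, add_pow_char_pow,
      Cfsg.Agent.Lib.Helper29.SuzA.pow_pow_card (2 ^ n) hF, add_comm]
  have h1 := LinearMap.finrank_range_add_finrank_ker (trLin F n)
  rw [hker, hfr] at h1
  have h2 := Submodule.finrank_mono hrange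
  have h3 : Module.finrank (ZMod 2) (fixSub F n) ≤ n := by
    have hc := card_fixSub_le F n (by omega)
    rw [Module.natCard_eq_pow_finrank (K := ZMod 2), Nat.card_zmod] at hc
    exact (Nat.pow_le_pow_iff_right (by norm_num)).mp hc
  omega

theorem card_linearMap (hn : 1 ≤ n) (hF : Fintype.card F = (2 ^ n) ^ 2) :
    Nat.card (F →ₗ[ZMod 2] fixSub F n) = 2 ^ (2 * n ^ 2) := by
  rw [Module.natCard_eq_pow_finrank (K := ZMod 2), Nat.card_zmod, Module.finrank_linearMap,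
    finrank_F F n hF, finrank_fixSub F n hn hF]
  congr 1
  ring

end field

section kernel

variable {F : Type u} [Field F] [Fintype F] {n : ℕ} {T : Type v} [Group T]

theorem exists_fst (hn : 1 ≤ n) (hF : Fintype.card F = (2 ^ n) ^ 2) (C : Coords F (2 ^ n) T)
    (a : F) : ∃ x : T, (C.c x).1 = a := by
  obtain ⟨b, hb⟩ := Cfsg.Agent.Lib.Helper29.SuzA.pkgTr F n hn hF a
  obtain ⟨x, hx⟩ := (C.range a b).2 hb
  exact ⟨x, by rw [hx]⟩

/-- an element with first coordinate `a` -/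
noncomputable def xa (hn : 1 ≤ n) (hF : Fintype.card F = (2 ^ n) ^ 2) (C : Coords F (2 ^ n) T)
    (a : F) : T := Classical.choose (exists_fst hn hF C a)

theorem xa_fst (hn : 1 ≤ n) (hF : Fintype.card F = (2 ^ n) ^ 2) (C : Coords F (2 ^ n) T)
    (a : F) : (C.c (xa hn hF C a)).1 = a := Classical.choose_spec (exists_fst hn hF C a)

/-- the shift of the second coordinate under `φ` -/
noncomputable def hfun (hn : 1 ≤ n) (hF : Fintype.card F = (2 ^ n) ^ 2) (C : Coords F (2 ^ n) T)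
    (φ : MulAut T) (a : F) : F := (C.c (φ (xa hn hF C a))).2 + (C.c (xa hn hF C a)).2

theorem ker_snd [CharP F 2] (hn : 1 ≤ n) (hF : Fintype.card F = (2 ^ n) ^ 2)
    (C : Coords F (2 ^ n) T) (φ : MulAut T) (hφ : φ ∈ K C) (x : T) :
    (C.c (φ x)).2 = (C.c x).2 + hfun hn hF C φ (C.c x).1 := by
  obtain ⟨a, ha⟩ : ∃ a, a = (C.c x).1 := ⟨_, rfl⟩
  rw [← ha]
  show (C.c (φ x)).2 = (C.c x).2 + ((C.c (φ (xa hn hF C a))).2 + (C.c (xa hn hF C a)).2)
  have hya : (C.c (xa hn hF C a)).1 = a := xa_fst hn hF C a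
  obtain ⟨y, hy⟩ : ∃ y, y = xa hn hF C a := ⟨_, rfl⟩
  rw [← hy] at hya ⊢
  have hz : (C.c (y⁻¹ * x)).1 = 0 := by
    rw [Cfsg.Agent.Lib.Helper66.SuzA.fst_mul, Cfsg.Agent.Lib.Helper66.SuzA.fst_inv, hya, ha,
      neg_add_cancel]
  have hfix : φ (y⁻¹ * x) = y⁻¹ * x :=
    Cfsg.Agent.Lib.Helper66.SuzA.ker_fix Cfsg.Agent.Lib.Helper29.SuzA.pkgTr F n hn hF T C φ hφ
      _ hz
  have hx : x = y * (y⁻¹ * x) := by group
  have h1 : (C.c x).2 = (C.c y).2 + (C.c (y⁻¹ * x)).2 := by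
    have h : (C.c (y * (y⁻¹ * x))).2 = (C.c y).2 + (C.c (y⁻¹ * x)).2 +
        (C.c y).1 ^ 2 ^ n * (C.c (y⁻¹ * x)).1 := congrArg Prod.snd (C.mul y (y⁻¹ * x))
    rw [← hx, hz, mul_zero, add_zero] at h
    exact h
  have hφx : φ x = φ y * (y⁻¹ * x) := by
    conv_lhs => rw [hx, map_mul, hfix]
  have h2 : (C.c (φ x)).2 = (C.c (φ y)).2 + (C.c (y⁻¹ * x)).2 := by
    have h : (C.c (φ y * (y⁻¹ * x))).2 = (C.c (φ y)).2 + (C.c (y⁻¹ * x)).2 +
        (C.c (φ y)).1 ^ 2 ^ n * (C.c (y⁻¹ * x)).1 := congrArg Prod.snd (C.mul (φ y) (y⁻¹ * x))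
    rw [← hφx, hz, mul_zero, add_zero] at h
    exact h
  rw [h2, h1]
  have e : (C.c y).2 + (C.c (y⁻¹ * x)).2 + ((C.c (φ y)).2 + (C.c y).2) =
      (C.c (φ y)).2 + (C.c (y⁻¹ * x)).2 + ((C.c y).2 + (C.c y).2) := by abel
  rw [e, CharTwo.add_self_eq_zero, add_zero]

theorem hfun_add [CharP F 2] (hn : 1 ≤ n) (hF : Fintype.card F = (2 ^ n) ^ 2)
    (C : Coords F (2 ^ n) T) (φ : MulAut T) (hφ : φ ∈ K C) (a a' : F) :
    hfun hn hF C φ (a + a') = hfun hn hF C φ a + hfun hn hF C φ a' := by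
  obtain ⟨x, hx⟩ := exists_fst hn hF C a
  obtain ⟨x', hx'⟩ := exists_fst hn hF C a'
  have h1 := ker_snd hn hF C φ hφ (x * x')
  have h2 := ker_snd hn hF C φ hφ x
  have h3 := ker_snd hn hF C φ hφ x'
  have hk := (mem_K C φ).1 hφ
  have e1 : (C.c (x * x')).1 = a + a' := by
    rw [Cfsg.Agent.Lib.Helper66.SuzA.fst_mul, hx, hx']
  have e2 : (C.c (x * x')).2 = (C.c x).2 + (C.c x').2 + a ^ (2 ^ n) * a' := by
    have h : (C.c (x * x')).2 = (C.c x).2 + (C.c x').2 + (C.c x).1 ^ 2 ^ n * (C.c x').1 :=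
      congrArg Prod.snd (C.mul x x')
    rw [h, hx, hx']
  have e3 : (C.c (φ x * φ x')).2 = (C.c (φ x)).2 + (C.c (φ x')).2 + a ^ (2 ^ n) * a' := by
    have h : (C.c (φ x * φ x')).2 = (C.c (φ x)).2 + (C.c (φ x')).2 +
        (C.c (φ x)).1 ^ 2 ^ n * (C.c (φ x')).1 := congrArg Prod.snd (C.mul (φ x) (φ x'))
    rw [h, hk x, hk x', hx, hx']
  rw [map_mul, e3, e2, e1, h2, h3, hx, hx'] at h1
  have h4 : ((C.c x).2 + (C.c x').2 + a ^ (2 ^ n) * a') +
      (hfun hn hF C φ a + hfun hn hF C φ a') =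
      ((C.c x).2 + (C.c x').2 + a ^ (2 ^ n) * a') + hfun hn hF C φ (a + a') := by
    rw [← h1]
    abel
  exact (add_left_cancel h4).symm

theorem hfun_mem [CharP F 2] (hn : 1 ≤ n) (hF : Fintype.card F = (2 ^ n) ^ 2)
    (C : Coords F (2 ^ n) T) (φ : MulAut T) (hφ : φ ∈ K C) (a : F) :
    hfun hn hF C φ a ^ (2 ^ n) = hfun hn hF C φ a := by
  obtain ⟨x, hx⟩ := exists_fst hn hF C a
  have h2 := ker_snd hn hF C φ hφ x
  rw [hx] at h2
  have hk := (mem_K C φ).1 hφ x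
  have r1 := (C.range (C.c x).1 (C.c x).2).1 ⟨x, rfl⟩
  have r2 := (C.range (C.c (φ x)).1 (C.c (φ x)).2).1 ⟨φ x, rfl⟩
  rw [hk, h2, add_pow_char_pow] at r2
  have e : (C.c x).2 + hfun hn hF C φ a + ((C.c x).2 ^ 2 ^ n + hfun hn hF C φ a ^ 2 ^ n) =
      ((C.c x).2 + (C.c x).2 ^ 2 ^ n) + (hfun hn hF C φ a + hfun hn hF C φ a ^ 2 ^ n) := by
    abel
  rw [e, r1] at r2
  have h5 : hfun hn hF C φ a + hfun hn hF C φ a ^ 2 ^ n = 0 := add_eq_left.mp r2
  exact (CharTwo.add_eq_zero.mp h5).symm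

end kernel

attribute [local instance] alg2

/-- **Package (8) PkgKerCard.** -/
theorem pkgKerCard : PkgKerCard.{u, v} := by
  intro F _ _ n hn2 hF T _ C
  have hn : 1 ≤ n := by omega
  have hch : CharP F 2 := Cfsg.Agent.Lib.Helper66.SuzA.charP_two F n hn hF
  rw [← card_linearMap F n hn hF]
  let Φ : K C → (F →ₗ[ZMod 2] fixSub F n) := fun φ =>
    AddMonoidHom.toZModLinearMap 2 (AddMonoidHom.mk'
      (fun a => (⟨hfun hn hF C φ.1 a,
        (mem_fixSub F n _).2 (hfun_mem hn hF C φ.1 φ.2 a)⟩ : fixSub F n))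
      (fun a a' => Subtype.ext (hfun_add hn hF C φ.1 φ.2 a a')))
  have hΦ : ∀ (φ : K C) (a : F), ((Φ φ a : fixSub F n) : F) = hfun hn hF C φ.1 a :=
    fun φ a => rfl
  apply Nat.card_congr
  refine Equiv.ofBijective Φ ⟨?_, ?_⟩
  · intro φ ψ h
    apply Subtype.ext
    apply MulEquiv.ext
    intro x
    apply C.inj
    have h1 := ker_snd hn hF C φ.1 φ.2 x
    have h2 := ker_snd hn hF C ψ.1 ψ.2 x
    have h3 : hfun hn hF C φ.1 (C.c x).1 = hfun hn hF C ψ.1 (C.c x).1 := by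
      rw [← hΦ φ, ← hΦ ψ, h]
    exact Prod.ext (by rw [(mem_K C φ.1).1 φ.2 x, (mem_K C ψ.1).1 ψ.2 x]) (by rw [h1, h2, h3])
  · intro L
    have hL : ∀ a : F, ((L a : fixSub F n) : F) ^ (2 ^ n) = (L a : F) :=
      fun a => (mem_fixSub F n _).1 (L a).2
    have hLadd : ∀ a a' : F, ((L (a + a') : fixSub F n) : F) = (L a : F) + (L a' : F) := by
      intro a a'
      rw [map_add]
      rfl
    have hpres : ∀ a b : F, b + b ^ (2 ^ n) = a ^ (2 ^ n + 1) →
        (b + (L a : F)) + (b + (L a : F)) ^ (2 ^ n) = a ^ (2 ^ n + 1) := by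
      intro a b hab
      rw [add_pow_char_pow, hL]
      have e : b + (L a : F) + (b ^ 2 ^ n + (L a : F)) =
          (b + b ^ 2 ^ n) + ((L a : F) + (L a : F)) := by abel
      rw [e, CharTwo.add_self_eq_zero, add_zero, hab]
    have hinv : ∀ a b : F, (a, b + (L a : F) + (L a : F)) = (a, b) := by
      intro a b
      rw [add_assoc, CharTwo.add_self_eq_zero, add_zero]
    have hT := Cfsg.Agent.Lib.Helper29.SuzA.pkgTransport F (2 ^ n) T C
      (fun p => (p.1, p.2 + (L p.1 : F))) (fun p => (p.1, p.2 + (L p.1 : F)))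
      (fun a b hab => hpres a b hab) (fun a b hab => hpres a b hab)
      (fun a b _ => hinv a b) (fun a b _ => hinv a b)
      (by
        intro a b a' b' _ _
        show (a + a', b + b' + a ^ 2 ^ n * a' + (L (a + a') : F)) =
          (a + a', b + (L a : F) + (b' + (L a' : F)) + a ^ 2 ^ n * a')
        rw [hLadd]
        congr 1
        abel)
    obtain ⟨φ, hφ⟩ := hT
    have hφK : φ ∈ K C := by
      rw [mem_K]
      intro x
      rw [hφ]
    refine ⟨⟨φ, hφK⟩, ?_⟩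
    apply LinearMap.ext
    intro a
    apply Subtype.ext
    rw [hΦ]
    show (C.c (φ (xa hn hF C a))).2 + (C.c (xa hn hF C a)).2 = (L a : F)
    rw [hφ]
    show (C.c (xa hn hF C a)).2 + (L (C.c (xa hn hF C a)).1 : F) + (C.c (xa hn hF C a)).2 =
      (L a : F)
    rw [xa_fst, add_comm ((C.c (xa hn hF C a)).2) _, add_assoc, CharTwo.add_self_eq_zero,
      add_zero]

end Cfsg.Agent.Lib.Helper96.SuzA
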