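/-
S3162 (SuzA project of helper58), package (11) PkgO2: the group of maps `a ↦ l * ρ a` of a
finite field of order `(2 ^ n) ^ 2` has no non-trivial normal 2-subgroup.
-/
import Mathlib
import Cfsg.Agent.Lib.Helper58.SuzA.Defs

set_option autoImplicit false

namespace Cfsg.Agent.Lib.Helper96.SuzA

open Cfsg.Agent.Lib.Helper58.SuzA

universe u

theorem perm_pow_apply {F : Type*} [Field F] (σ : Equiv.Perm F) (d : F)
    (h : ∀ a, σ a = d * a) (j : ℕ) (a : F) : (σ ^ j) a = d ^ j * a := by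
  induction j generalizing a with
  | zero => simp
  | succ j ih =>
    rw [pow_succ', Equiv.Perm.mul_apply, ih, h, pow_succ']
    ring

theorem eq_one_of_two_pow {F : Type*} [Field F] [Fintype F] (n : ℕ) (hn : 1 ≤ n)
    (hF : Fintype.card F = (2 ^ n) ^ 2) (d : F) (hd : d ≠ 0) (k : ℕ) (hk : d ^ (2 ^ k) = 1) :
    d = 1 := by
  have h1 : d ^ (Fintype.card F - 1) = 1 := FiniteField.pow_card_sub_one_eq_one d hd
  rw [hF] at h1
  have o1 := orderOf_dvd_of_pow_eq_one hk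
  have o2 := orderOf_dvd_of_pow_eq_one h1
  have hodd : Odd ((2 ^ n) ^ 2 - 1) := by
    apply Nat.Even.sub_odd
    · exact Nat.one_le_pow _ _ (by positivity)
    · exact Nat.even_pow.mpr ⟨Nat.even_pow.mpr ⟨even_two, by omega⟩, two_ne_zero⟩
    · exact odd_one
  have hcop : Nat.Coprime (2 ^ k) ((2 ^ n) ^ 2 - 1) :=
    Nat.Coprime.pow_left k (Nat.coprime_two_left.mpr hodd)
  have h2 := Nat.dvd_gcd o1 o2
  rw [Nat.Coprime] at hcop
  rw [hcop] at h2
  exact orderOf_eq_one_iff.mp (Nat.dvd_one.mp h2)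

/-- **Package (11) PkgO2.** -/
theorem pkgO2 : PkgO2.{u} := by
  intro F _ _ n hn hF N hNG hNn hN2
  rw [eq_bot_iff]
  intro x hx
  rw [Subgroup.mem_bot]
  obtain ⟨l, hl, ρ, hρ⟩ := hNG x hx
  have hρid : ∀ c : F, ρ c = c := by
    intro c
    by_cases hc : c = 0
    · rw [hc, map_zero]
    have hmc : Equiv.mulLeft₀ c hc ∈ Gam F := ⟨c, hc, RingEquiv.refl F, fun a => rfl⟩
    have hy : x * (Equiv.mulLeft₀ c hc * x⁻¹ * (Equiv.mulLeft₀ c hc)⁻¹) ∈ N :=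
      N.mul_mem hx (hNn _ hmc _ (N.inv_mem hx))
    have hyapp : ∀ a, (x * (Equiv.mulLeft₀ c hc * x⁻¹ * (Equiv.mulLeft₀ c hc)⁻¹)) a =
        (ρ c * c⁻¹) * a := by
      intro a
      have hb' : c * ((Equiv.mulLeft₀ c hc)⁻¹ a) = a := by
        have h3 : Equiv.mulLeft₀ c hc ((Equiv.mulLeft₀ c hc)⁻¹ a) = a :=
          Equiv.apply_symm_apply (Equiv.mulLeft₀ c hc) a
        exact h3
      have he' : l * ρ (x⁻¹ ((Equiv.mulLeft₀ c hc)⁻¹ a)) = (Equiv.mulLeft₀ c hc)⁻¹ a := by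
        rw [← hρ]
        exact Equiv.apply_symm_apply x _
      have h4 : (x * (Equiv.mulLeft₀ c hc * x⁻¹ * (Equiv.mulLeft₀ c hc)⁻¹)) a =
          x (c * x⁻¹ ((Equiv.mulLeft₀ c hc)⁻¹ a)) := rfl
      rw [h4, hρ, map_mul]
      have hb'' : (Equiv.mulLeft₀ c hc)⁻¹ a = c⁻¹ * a :=
        (eq_inv_mul_iff_mul_eq₀ hc).mpr hb'
      calc l * (ρ c * ρ (x⁻¹ ((Equiv.mulLeft₀ c hc)⁻¹ a)))
          = ρ c * (l * ρ (x⁻¹ ((Equiv.mulLeft₀ c hc)⁻¹ a))) := by ring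
        _ = ρ c * c⁻¹ * a := by rw [he', hb'', mul_assoc]
    obtain ⟨k, hk⟩ := hN2 ⟨_, hy⟩
    have hk' : (x * (Equiv.mulLeft₀ c hc * x⁻¹ * (Equiv.mulLeft₀ c hc)⁻¹)) ^ (2 ^ k) = 1 := by
      have h5 := congrArg Subtype.val hk
      simpa only [SubmonoidClass.coe_pow, OneMemClass.coe_one] using h5
    have h1 := perm_pow_apply _ _ hyapp (2 ^ k) 1
    rw [hk', Equiv.Perm.one_apply, mul_one] at h1
    have hd : ρ c * c⁻¹ ≠ 0 :=
      mul_ne_zero (fun h => hc (by simpa using h)) (inv_ne_zero hc)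
    have h6 := eq_one_of_two_pow n hn hF _ hd k h1.symm
    calc ρ c = ρ c * c⁻¹ * c := by rw [mul_assoc, inv_mul_cancel₀ hc, mul_one]
      _ = c := by rw [h6, one_mul]
  have hx' : ∀ a, x a = l * a := fun a => by rw [hρ, hρid]
  obtain ⟨k, hk⟩ := hN2 ⟨x, hx⟩
  have hk' : x ^ (2 ^ k) = 1 := by
    have h5 := congrArg Subtype.val hk
    simpa only [SubmonoidClass.coe_pow, OneMemClass.coe_one] using h5
  have h1 := perm_pow_apply x l hx' (2 ^ k) 1
  rw [hk', Equiv.Perm.one_apply, mul_one] at h1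
  have hl1 := eq_one_of_two_pow n hn hF l hl k h1.symm
  ext a
  rw [hx', hl1, one_mul, Equiv.Perm.one_apply]

end Cfsg.Agent.Lib.Helper96.SuzA
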